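import Mathlib

/-!
# The polynomial method (helper110, S5715 (PM))

`poly_method` : a finite submonoid `H` of a `K`-algebra which contains `1 + t N_{i1} + ... + t^e N_{ie}` for all `t ∈ F`
(`F` a finite subfield of `K` with `q` elements), `i < d`, with `N_{i1}` linearly independent, has at least
`choose ((q - 1) / e + d) d` elements.
-/

set_option autoImplicit false

namespace Cfsg.Agent.H110.BR

open MvPolynomial

section Pol

variable {F A : Type*} [Field F] [Ring A] [Algebra F A] {d : ℕ} (e : ℕ) (N : Fin d → ℕ → A)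

/-- the polynomial of `λ(Π_{i ∈ l} (1 + t_i N_{i1} + ... + t_i^e N_{ie}))` -/
noncomputable def pol : List (Fin d) → (A →ₗ[F] F) → MvPolynomial (Fin d) F
  | [], lam => C (lam 1)
  | i :: l, lam => pol l lam + ∑ j ∈ Finset.Icc 1 e, X i ^ j * pol l (lam ∘ₗ LinearMap.mulLeft F (N i j))

theorem eval_pol (t : Fin d → F) : ∀ (l : List (Fin d)) (lam : A →ₗ[F] F),
    eval t (pol e N l lam) = lam ((l.map fun i => 1 + ∑ j ∈ Finset.Icc 1 e, t i ^ j • N i j).prod)
  | [], lam => by simp [pol]
  | i :: l, lam => by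
    rw [pol, map_add, eval_pol t l, List.map_cons, List.prod_cons, add_mul, one_mul, map_add, map_sum,
      Finset.sum_mul, map_sum]
    congr 1
    refine Finset.sum_congr rfl fun j _ => ?_
    rw [map_mul, map_pow, eval_X, eval_pol t l, smul_mul_assoc, map_smul, smul_eq_mul]
    rfl

theorem degreeOf_pol (i : Fin d) : ∀ (l : List (Fin d)) (lam : A →ₗ[F] F), degreeOf i (pol e N l lam) ≤ e * l.count i
  | [], lam => by simp [pol]
  | k :: l, lam => by
    rw [pol, List.count_cons]
    refine (degreeOf_add_le _ _ _).trans (max_le ((degreeOf_pol i l lam).trans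
      (Nat.mul_le_mul_left _ (Nat.le_add_right _ _))) ?_)
    refine (degreeOf_sum_le _ _ _).trans (Finset.sup_le fun j hj => ?_)
    refine (degreeOf_mul_le _ _ _).trans ?_
    have h1 := degreeOf_pol i l (lam ∘ₗ LinearMap.mulLeft F (N k j))
    have hj2 := (Finset.mem_Icc.1 hj).2
    have h2 : degreeOf i (X k ^ j : MvPolynomial (Fin d) F) ≤ if (k == i) = true then e else 0 := by
      refine (degreeOf_pow_le _ _ _).trans ?_
      rw [degreeOf_X]
      by_cases h : i = k
      · simp [h, hj2]
      · simp [h]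
    split_ifs at h2 ⊢
    · rw [mul_add, mul_one]; omega
    · rw [mul_add, mul_zero]; omega

theorem X_mem (i : Fin d) : (X i : MvPolynomial (Fin d) F) ∈ idealOfVars (Fin d) F := by
  have h := (monomial_mem_pow_idealOfVars_iff (σ := Fin d) (R := F) 1 (Finsupp.single i 1) one_ne_zero).2 (by simp)
  rwa [pow_one] at h

theorem pol_sub (l : List (Fin d)) : ∀ (lam : A →ₗ[F] F), pol e N l lam - C (lam 1) ∈ idealOfVars (Fin d) F := by
  induction l with
  | nil => intro lam; simp [pol]
  | cons i l ih =>
    intro lam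
    have h : pol e N (i :: l) lam - C (lam 1) = (pol e N l lam - C (lam 1)) +
        ∑ j ∈ Finset.Icc 1 e, X i ^ j * pol e N l (lam ∘ₗ LinearMap.mulLeft F (N i j)) := by rw [pol]; ring
    rw [h]
    refine add_mem (ih lam) (sum_mem fun j hj => Ideal.mul_mem_right _ _ ?_)
    exact Ideal.pow_mem_of_mem _ (X_mem i) _ (Finset.mem_Icc.1 hj).1

theorem pol_sub_sub (he : 1 ≤ e) (l : List (Fin d)) : ∀ (lam : A →ₗ[F] F),
    pol e N l lam - C (lam 1) - (l.map fun i => C (lam (N i 1)) * X i).sum ∈ idealOfVars (Fin d) F ^ 2 := by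
  induction l with
  | nil => intro lam; simp [pol]
  | cons i l ih =>
    intro lam
    have h1 : ∑ j ∈ Finset.Icc 1 e, X i ^ j * pol e N l (lam ∘ₗ LinearMap.mulLeft F (N i j)) =
        X i * pol e N l (lam ∘ₗ LinearMap.mulLeft F (N i 1)) +
        ∑ j ∈ Finset.Icc 2 e, X i ^ j * pol e N l (lam ∘ₗ LinearMap.mulLeft F (N i j)) := by
      have h2 : Finset.Icc 1 e = insert 1 (Finset.Icc 2 e) := by
        ext j; simp only [Finset.mem_insert, Finset.mem_Icc]; omega
      rw [h2, Finset.sum_insert (by simp), pow_one]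
    have h : pol e N (i :: l) lam - C (lam 1) - ((i :: l).map fun i => C (lam (N i 1)) * X i).sum =
        (pol e N l lam - C (lam 1) - (l.map fun i => C (lam (N i 1)) * X i).sum) +
        X i * (pol e N l (lam ∘ₗ LinearMap.mulLeft F (N i 1)) - C ((lam ∘ₗ LinearMap.mulLeft F (N i 1)) 1)) +
        ∑ j ∈ Finset.Icc 2 e, X i ^ j * pol e N l (lam ∘ₗ LinearMap.mulLeft F (N i j)) := by
      rw [pol, List.map_cons, List.sum_cons, h1]
      have e1 : (lam ∘ₗ LinearMap.mulLeft F (N i 1)) 1 = lam (N i 1) := by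
        simp
      rw [e1]; ring
    rw [h]
    refine add_mem (add_mem (ih lam) ?_) (sum_mem fun j hj => Ideal.mul_mem_right _ _ ?_)
    · rw [pow_two]
      exact Ideal.mul_mem_mul (X_mem i) (pol_sub e N l _)
    · exact Ideal.pow_le_pow_right (Finset.mem_Icc.1 hj).1 (Ideal.pow_mem_pow (X_mem i) j)

end Pol

section Mem

variable {R : Type*} [CommRing R] {I : Ideal R}

theorem mul_sub_mem {a a' b b' : R} {r s : ℕ} (ha : a - a' ∈ I ^ (r + 1)) (ha' : a' ∈ I ^ r)
    (hb : b - b' ∈ I ^ (s + 1)) (hb' : b' ∈ I ^ s) : a * b - a' * b' ∈ I ^ (r + s + 1) := by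
  have hb2 : b ∈ I ^ s := by
    have : b = (b - b') + b' := by ring
    rw [this]
    exact add_mem (Ideal.pow_le_pow_right (Nat.le_succ s) hb) hb'
  have e : a * b - a' * b' = (a - a') * b + a' * (b - b') := by ring
  rw [e]
  refine add_mem ?_ ?_
  · have h1 := Ideal.mul_mem_mul ha hb2
    rw [← pow_add] at h1
    convert h1 using 2
    ring
  · have h1 := Ideal.mul_mem_mul ha' hb
    rw [← pow_add] at h1
    convert h1 using 2
    ring

theorem pow_sub_mem {a x : R} (ha : a - x ∈ I ^ 2) (hx : x ∈ I) (m : ℕ) : a ^ m - x ^ m ∈ I ^ (m + 1) := by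
  induction m with
  | zero => simp
  | succ m ih =>
    rw [pow_succ a, pow_succ x]
    have h := mul_sub_mem (I := I) (r := m) (s := 1) ih (Ideal.pow_mem_pow hx m) ha (by rwa [pow_one])
    exact h

theorem prod_sub_mem {ι : Type*} (s : Finset ι) {a x : ι → R} (m : ι → ℕ) (ha : ∀ i, a i - x i ∈ I ^ 2)
    (hx : ∀ i, x i ∈ I) :
    ∏ i ∈ s, a i ^ m i - ∏ i ∈ s, x i ^ m i ∈ I ^ (∑ i ∈ s, m i + 1) := by
  classical
  induction s using Finset.induction_on with
  | empty => simp
  | insert j s hj ih =>
    rw [Finset.prod_insert hj, Finset.prod_insert hj, Finset.sum_insert hj]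
    refine mul_sub_mem (pow_sub_mem (ha j) (hx j) (m j)) (Ideal.pow_mem_pow (hx j) _) ih ?_
    rw [← Finset.prod_pow_eq_pow_sum]
    exact Ideal.prod_mem_prod fun i _ => Ideal.pow_mem_pow (hx i) _

end Mem

section Main

variable {F : Type*} [Field F] {d : ℕ}

theorem coeff_prod {a : Fin d → MvPolynomial (Fin d) F} (ha : ∀ i, a i - X i ∈ idealOfVars (Fin d) F ^ 2)
    (m m' : Fin d → ℕ) (h : ∑ i, m i ≤ ∑ i, m' i) :
    coeff (Finsupp.equivFunOnFinite.symm m) (∏ i, a i ^ m' i) = if m = m' then 1 else 0 := by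
  classical
  have h1 := prod_sub_mem Finset.univ m' ha (fun i => X_mem (F := F) i)
  rw [mem_pow_idealOfVars_iff'] at h1
  have h2 := h1 (Finsupp.equivFunOnFinite.symm m) (by
    have : Finsupp.degree (Finsupp.equivFunOnFinite.symm m) = ∑ i, m i := by
      rw [Finsupp.degree_eq_sum]
      rfl
    rw [this]
    omega)
  rw [coeff_sub, sub_eq_zero] at h2
  rw [h2]
  have h3 : (∏ i, (X i : MvPolynomial (Fin d) F) ^ m' i) = monomial (Finsupp.equivFunOnFinite.symm m') 1 := by
    rw [monomial_eq, C_1, one_mul, Finsupp.prod_fintype _ _ (fun i => pow_zero _)]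
    rfl
  rw [h3, coeff_monomial]
  by_cases h4 : m = m'
  · rw [if_pos h4, if_pos (by rw [h4])]
  · rw [if_neg h4, if_neg (fun h5 => h4 ((Finsupp.equivFunOnFinite.symm.injective h5).symm))]

theorem linInd {a : Fin d → MvPolynomial (Fin d) F} (ha : ∀ i, a i - X i ∈ idealOfVars (Fin d) F ^ 2)
    {ι : Type*} [Fintype ι] {m : ι → Fin d → ℕ} (hm : Function.Injective m) {c : ι → F}
    (h0 : ∑ s, c s • ∏ i, a i ^ m s i = 0) : ∀ s, c s = 0 := by
  classical
  by_contra hcon
  push Not at hcon
  obtain ⟨s₀, hc₀⟩ := hcon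
  obtain ⟨s, hs, hmin⟩ := Finset.exists_min_image (Finset.univ.filter fun s => c s ≠ 0) (fun s => ∑ i, m s i)
    ⟨s₀, Finset.mem_filter.2 ⟨Finset.mem_univ _, hc₀⟩⟩
  rw [Finset.mem_filter] at hs
  have h1 := congrArg (coeff (Finsupp.equivFunOnFinite.symm (m s))) h0
  rw [coeff_sum, coeff_zero, Finset.sum_eq_single s] at h1
  · rw [coeff_smul, coeff_prod ha (m s) (m s) le_rfl, if_pos rfl, smul_eq_mul, mul_one] at h1
    exact hs.2 h1
  · intro s' _ hne
    rw [coeff_smul]
    by_cases hc : c s' = 0
    · rw [hc, zero_smul]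
    · rw [coeff_prod ha (m s) (m s') (hmin s' (Finset.mem_filter.2 ⟨Finset.mem_univ _, hc⟩)),
        if_neg (fun h => hne (hm h).symm), smul_zero]
  · intro h2
    exact absurd (Finset.mem_univ s) h2

/-- the exponents of degree `≤ D` -/
def expo (d D : ℕ) (s : Sym (Fin (d + 1)) D) (i : Fin d) : ℕ := (s : Multiset (Fin (d + 1))).count i.castSucc

theorem expo_sum (d D : ℕ) (s : Sym (Fin (d + 1)) D) :
    ∑ i, expo d D s i + (s : Multiset (Fin (d + 1))).count (Fin.last d) = D := by
  have h1 : ∑ i : Fin (d + 1), (s : Multiset (Fin (d + 1))).count i = D := by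
    rw [Multiset.sum_count_eq_card (fun a _ => Finset.mem_univ a)]
    exact s.2
  rw [Fin.sum_univ_castSucc] at h1
  exact h1

theorem expo_injective (d D : ℕ) : Function.Injective (expo d D) := by
  intro s s' h
  apply Sym.coe_injective
  ext i
  refine Fin.lastCases ?_ (fun i => ?_) i
  · have h1 := expo_sum d D s
    have h2 := expo_sum d D s'
    rw [h] at h1
    omega
  · exact congrFun h i

/-- **The polynomial method.** -/
theorem poly_method {K A : Type*} [Field K] [Ring A] [Algebra K A] (F : Subfield K) [Finite F] (d e : ℕ) (he : 1 ≤ e)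
    (N : Fin d → ℕ → A) (hN : LinearIndependent K fun i => N i 1) (H : Submonoid A) [Finite H]
    (hH : ∀ i, ∀ t ∈ F, 1 + ∑ j ∈ Finset.Icc 1 e, (t : K) ^ j • N i j ∈ H) :
    Nat.choose ((Nat.card F - 1) / e + d) d ≤ Nat.card H := by
  classical
  -- the functionals
  obtain ⟨lam, hlam⟩ : ∃ lam : A →ₗ[K] (Fin d → K), ∀ j, lam (N j 1) = Pi.single j 1 := by
    obtain ⟨g, hg⟩ := LinearMap.exists_leftInverse_of_injective (Fintype.linearCombination K fun i => N i 1)
      (LinearMap.ker_eq_bot'.2 fun c hc => by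
        rw [Fintype.linearCombination_apply] at hc
        exact funext (Fintype.linearIndependent_iff.1 hN c hc))
    refine ⟨g, fun j => ?_⟩
    have h1 := LinearMap.congr_fun hg (Pi.single j 1)
    rw [LinearMap.comp_apply, LinearMap.id_apply, Fintype.linearCombination_apply_single, one_smul] at h1
    exact h1
  obtain ⟨D, hD⟩ : ∃ D, D = (Nat.card F - 1) / e := ⟨_, rfl⟩
  rw [← hD]
  have hfinF : (F : Set K).Finite := Set.toFinite _
  have hcardF : hfinF.toFinset.card = Nat.card F := by
    rw [← Set.ncard_eq_toFinset_card _ hfinF]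
    rfl
  have hprod : ∀ t : Fin d → K, (∀ i, t i ∈ F) →
      ((List.finRange d).map fun i => 1 + ∑ j ∈ Finset.Icc 1 e, t i ^ j • N i j).prod ∈ H := by
    intro t ht
    refine H.list_prod_mem fun x hx => ?_
    obtain ⟨i, -, rfl⟩ := List.mem_map.1 hx
    exact hH i (t i) (ht i)
  let li : Fin d → A →ₗ[K] K := fun i => LinearMap.proj i ∘ₗ lam
  let a : Fin d → MvPolynomial (Fin d) K := fun i => pol e N (List.finRange d) (li i) - C (li i 1)
  have ha : ∀ i, a i - X i ∈ idealOfVars (Fin d) K ^ 2 := by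
    intro i
    have h1 := pol_sub_sub e N he (List.finRange d) (li i)
    have h2 : ((List.finRange d).map fun j => C (li i (N j 1)) * X j).sum = (X i : MvPolynomial (Fin d) K) := by
      rw [← List.ofFn_eq_map, List.sum_ofFn, Finset.sum_eq_single i]
      · simp [li, hlam]
      · intro j _ hj
        simp [li, hlam, Ne.symm hj]
      · intro h; exact absurd (Finset.mem_univ i) h
    rwa [h2] at h1
  have hadeg : ∀ i j, degreeOf j (a i) ≤ e := by
    intro i j
    refine (degreeOf_sub_le _ _ _).trans (max_le ((degreeOf_pol e N j _ _).trans ?_) ?_)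
    · have := (List.nodup_iff_count_le_one.1 (List.nodup_finRange d)) j
      calc e * List.count j (List.finRange d) ≤ e * 1 := Nat.mul_le_mul_left _ this
        _ = e := mul_one e
    · rw [degreeOf_C]; exact Nat.zero_le _
  -- the functions
  let Φ : Sym (Fin (d + 1)) D → (H → K) := fun m g => ∏ i, (li i g - li i 1) ^ expo d D m i
  have hΦ : LinearIndependent K Φ := by
    rw [Fintype.linearIndependent_iff]
    intro c hc
    let P : MvPolynomial (Fin d) K := ∑ m, c m • ∏ i, a i ^ expo d D m i
    have hP : P = 0 := by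
      refine eq_zero_of_eval_zero_at_prod_finset P (fun _ => hfinF.toFinset) (fun j => ?_) fun t ht => ?_
      · rw [hcardF]
        have h1 : degreeOf j P ≤ e * D := by
          refine (degreeOf_sum_le _ _ _).trans (Finset.sup_le fun m _ => ?_)
          have h2 : degreeOf j (c m • ∏ i, a i ^ expo d D m i) ≤ degreeOf j (∏ i, a i ^ expo d D m i) := by
            rw [smul_eq_C_mul]
            exact degreeOf_C_mul_le _ _ _
          refine h2.trans ((degreeOf_prod_le _ _ _).trans ?_)
          calc ∑ i, degreeOf j (a i ^ expo d D m i) ≤ ∑ i, e * expo d D m i := Finset.sum_le_sum fun i _ => by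
                refine (degreeOf_pow_le _ _ _).trans ?_
                rw [mul_comm e]
                exact Nat.mul_le_mul_left _ (hadeg i j)
            _ = e * ∑ i, expo d D m i := (Finset.mul_sum _ _ _).symm
            _ ≤ e * D := Nat.mul_le_mul_left _ (by have := expo_sum d D m; omega)
        have h3 : e * D ≤ Nat.card F - 1 := by rw [hD]; exact Nat.mul_div_le _ _
        have h4 : 0 < Nat.card F := Nat.card_pos
        omega
      · have h1 := congrFun hc ⟨_, hprod t fun i => by
          have := ht i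
          rwa [Set.Finite.mem_toFinset] at this⟩
        rw [Finset.sum_apply, Pi.zero_apply] at h1
        rw [← h1, map_sum]
        refine Finset.sum_congr rfl fun m _ => ?_
        rw [Pi.smul_apply, smul_eq_C_mul, map_mul, eval_C, smul_eq_mul, map_prod]
        congr 1
        refine Finset.prod_congr rfl fun i _ => ?_
        rw [map_pow, map_sub, eval_pol, eval_C]
    exact linInd ha (expo_injective d D) hP
  have := Fintype.ofFinite H
  have h5 := hΦ.fintype_card_le_finrank
  rw [Module.finrank_fintype_fun_eq_card, Sym.card_sym_eq_choose, Fintype.card_fin,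
    ← Nat.card_eq_fintype_card] at h5
  have h6 : d + 1 + D - 1 = D + d := by omega
  rw [h6] at h5
  rwa [Nat.choose_symm_add] at h5

end Main

end Cfsg.Agent.H110.BR
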